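import Cfsg.Agent.E7P.En1.Rat
import Cfsg.Agent.E7P.Nt.White

/-!
# S5932, END1: the two modules of the rational `SL₂` (helper48)
-/

set_option autoImplicit false
set_option maxRecDepth 100000
set_option linter.unusedSectionVars false

namespace Cfsg.Agent.E7P.En1

open Cfsg Cfsg.Lie Matrix Module
open Cfsg.Agent.H943.E7V.Block (D1 rho)
open Cfsg.Agent.R2.T1 Cfsg.Agent.E7P.Kf Cfsg.Agent.E7P.Br
open Cfsg.Agent.R2.PX (del DD dd)
open Cfsg.Agent.H943.SL2Rel (u w h)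
open Finset (range)

universe u

variable {k : Type u} [Field k]

theorem del_single (r : Fin chevE7.nroots) (t : k) : del k (Pi.single (Sum.inr r) t) = t • NM k r := by
  rw [← R2.PX.del_inr, ← map_smul, ← Pi.single_smul, smul_eq_mul, mul_one]

theorem br_root (h2 : (2 : k) ≠ 0) (r : Fin chevE7.nroots) (t : k) (x : chevE7.Idx → k) :
    br k (Pi.single (Sum.inr r) t) x = t • (EM k r *ᵥ x) := by
  have h1 : ∀ s : k, del k x + s • del k (EM k r *ᵥ x) + s ^ 2 • del k (QM k r *ᵥ x) =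
      (1 + s • NM k r) * del k x * (1 + (-s) • NM k r) := fun s => by
    have h3 := del_adM h2 (xs k r s) x
    rwa [xs_inv, rho_xs' r.2, rho_xs' r.2, adM_xs r.2, add_mulVec, add_mulVec, one_mulVec, smul_mulVec, smul_mulVec,
      map_add, map_add, map_smul, map_smul] at h3
  have h3 := h1 1
  have h4 := h1 (-1)
  simp only [one_smul, neg_smul, neg_neg, one_pow, even_two, Even.neg_pow, mul_add, add_mul, mul_one, one_mul, mul_neg,
    neg_mul] at h3 h4
  refine Mu.del_injective ?_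
  rw [del_br, del_single, map_smul, smul_mul_assoc, mul_smul_comm, ← smul_sub]
  congr 1
  refine smul_right_injective _ h2 ?_
  show (2 : k) • _ = (2 : k) • _
  rw [two_smul, two_smul]
  have h5 := congrArg₂ (· - ·) h3 h4
  calc _ = del k x + NM k r * del k x + -(del k x * NM k r + NM k r * del k x * NM k r) -
      (del k x + -(NM k r * del k x) + (del k x * NM k r + -(NM k r * del k x * NM k r))) := by abel
    _ = _ := by rw [← h5]; abel

theorem kf_skew (h2 : (2 : k) ≠ 0) {β : E} {d : ℝ} (hd : 0 < d) {z : chevE7.Idx → k} (hz : z ∈ Ge k ac β d)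
    (x y : chevE7.Idx → k) : kf k (br k z x) y = - kf k x (br k z y) := by
  refine Lb.Ge_induction hd (P := fun z => kf k (br k z x) y = - kf k x (br k z y)) (by simp)
    (fun a _ b _ ha hb => by simp only [map_add, LinearMap.add_apply, ha, hb, neg_add]) (fun r _ t => ?_) hz
  rw [br_root h2, br_root h2, map_smul, map_smul, LinearMap.smul_apply, ← smul_neg, kf_apply, kf_apply, mulVec_mulVec,
    ← dotProduct_neg, ← neg_mulVec, ← KM_EM r.2, ← mulVec_mulVec, dotProduct_mulVec x, vecMul_transpose]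

theorem DD_del {β : E} {d : ℝ} (hd : 0 < d) {z : chevE7.Idx → k} (hz : z ∈ Ge k ac β d) (x y : D1 → k) :
    DD k (del k z *ᵥ x) y + DD k x (del k z *ᵥ y) + DD k x y * del k z = del k z * DD k x y := by
  refine Lb.Ge_induction hd
    (P := fun z => DD k (del k z *ᵥ x) y + DD k x (del k z *ᵥ y) + DD k x y * del k z = del k z * DD k x y) ?_
    (fun a _ b _ ha hb => ?_) (fun r _ t => ?_) hz
  · simp [R2.PX.DD_zero_left, R2.PX.DD_zero_right]
  · rw [map_add, add_mulVec, add_mulVec, R2.PX.DD_add_left, R2.PX.DD_add_right, mul_add, add_mul, ← ha, ← hb]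
    abel
  · rw [del_single, smul_mulVec, smul_mulVec, R2.PX.DD_smul_left, R2.PX.DD_smul_right, mul_smul_comm, smul_mul_assoc,
      ← (Mu.field_ident r.2 x y).1, smul_add, smul_add]

theorem Cm_dd {β : E} {d : ℝ} (hd : 0 < d) {z : chevE7.Idx → k} (hz : z ∈ Ge k ac β d) {x y : D1 → k}
    (hx : del k z *ᵥ x = 0) (hy : del k z *ᵥ y = 0) : Cm z (dd x y) := by
  have h1 := DD_del hd hz x y
  rw [hx, hy, R2.PX.DD_zero_left, R2.PX.DD_zero_right, zero_add, zero_add] at h1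
  show _ = _
  rw [R2.PX.del_dd, h1]

theorem dd_map (s : k →+* k) (x y : D1 → k) : dd (fun i => s (x i)) (fun i => s (y i)) = fun i => s (dd x y i) :=
  Mu.del_injective (by rw [R2.PX.del_dd, Mu.DD_emb, ← del_map, R2.PX.del_dd])

theorem br_map (s : k →+* k) (x y : chevE7.Idx → k) :
    br k (fun i => s (x i)) (fun i => s (y i)) = fun i => s (br k x y i) :=
  Mu.del_injective (by rw [del_br, ← del_map, ← del_map, ← del_map, del_br, Matrix.map_sub _ (map_sub s), Matrix.map_mul,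
    Matrix.map_mul])

theorem rt_elt {p : ℕ} [CharP k p] {m : Matrix D1 D1 k} (hm : Mu.IsRt m) : ∃ y, rho k y = 1 + m ∧ y ^ p = 1 ∧ y ≠ 1 := by
  obtain ⟨y, hy⟩ := hm.exp 1
  rw [one_smul] at hy
  have h1 : ∀ n : ℕ, rho k (y ^ n) = 1 + (n : k) • m := fun n => by
    induction n with
    | zero => simp
    | succ n ih =>
      rw [pow_succ, map_mul, ih, hy, add_mul, mul_add, mul_add, smul_mul_assoc _ m m, hm.sq, Nat.cast_succ, add_smul]
      simp only [one_mul, mul_one, smul_zero, add_zero, one_smul]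
      abel
  refine ⟨y, hy, rho_injective (by rw [h1, CharP.cast_eq_zero, zero_smul, add_zero, map_one]), fun e => hm.ne ?_⟩
  rw [e, map_one] at hy
  exact left_eq_add.1 hy

/-- opposite pairs of pure vectors -/
theorem pair_opp (h2 : (2 : k) ≠ 0) {x y : D1 → k} (hx : R2.PX.Pure k x) (hy : R2.PX.Pure k y) (hxy : sf k x y ≠ 0) :
    ∃ (g : Gh k) (c d : k), c ≠ 0 ∧ d ≠ 0 ∧ rho k g *ᵥ x = c • bs k topv ∧ rho k g *ᵥ y = d • bs k (op topv) := by
  classical
  obtain ⟨g1, c, hc, e1⟩ := Mu.pure_top h2 hx (by rintro rfl; exact hxy (by simp))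
  have e2 : V k g1 y (op topv) ≠ 0 := fun e => hxy (by
    rw [← sf_V g1, e1, map_smul, LinearMap.smul_apply, R2.PX.Tr.sf_top, e, mul_zero, smul_zero])
  obtain ⟨g3, hg3, e6, e7, -⟩ := R2.PX.Tr.clear (R2.PX.Tr.P k) (op topv) e2
    (Finset.univ.filter fun n => R2.PX.p2 n (op topv) = 1) (by
      intro n hn
      have hn1 := (Finset.mem_filter.1 hn).2
      refine ⟨hn1, fun r hr c' hm t => R2.PX.Tr.xs_mem hr (fun h4 => ?_) t⟩
      have h5 := R2.PX.p2_add hr hm topv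
      rw [R2.PX.p2_op, R2.PX.p2_self, h4] at h5
      rw [R2.PX.p2_op'] at hn1
      omega)
  refine ⟨g3 * g1, c, V k g3 (V k g1 y) (op topv), hc, by rwa [e6], ?_, ?_⟩
  · rw [mulVec_mul, ← V_apply g1, e1, ← V_apply, map_smul, R2.PX.Tr.mem_P.1 hg3]
  · rw [mulVec_mul]
    exact Mu.pure_eq h2 (Mu.pure_V (Mu.pure_V hy _) _) (e6 ▸ e2 : V k g3 (V k g1 y) (op topv) ≠ 0) fun n hn =>
      e7 n (Finset.mem_filter.2 ⟨Finset.mem_univ _, hn⟩)

/-- the cocharacter of the pair -/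
def nu7 : Fin 7 → ℤ := fun i => R2.PX.mmn (nn topv) i

theorem lz_nu7 (a : D1) : lz wc nu7 a = R2.PX.p2 topv a := by
  rw [R2.PX.p2_eq, sum7]
  exact Finset.sum_congr rfl fun i _ => mul_comm _ _

theorem hm_pair [Infinite k] (h2 : (2 : k) ≠ 0) (h3 : (3 : k) = 0) {A : Matrix D1 D1 k}
    (hA : A * DD k (bs k topv) (bs k (op topv)) = DD k (bs k topv) (bs k (op topv)) * A) {c d : k}
    (hc : A *ᵥ bs k topv = c • bs k topv) (hd : A *ᵥ bs k (op topv) = d • bs k (op topv)) : Hm (lz wc nu7) A 0 := by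
  have hne : op topv ≠ topv := fun e => by
    have h1 := R2.PX.p2_op topv topv
    rw [e, R2.PX.p2_self] at h1
    omega
  have hT : DD k (bs k topv) (bs k (op topv)) = diagonal fun m => -((ep topv : k) * (R2.PX.p2 topv m : k)) := by
    ext i j
    by_cases hij : i = j
    · rw [hij, diagonal_apply_eq, R2.PX.Tr.DD_diag, Finset.sum_eq_single topv, R2.PX.Tr.bs_same, R2.PX.Tr.bs_same, one_mul,
        mul_one]
      · intro a _ ha
        rw [R2.PX.Tr.bs_ne ha, zero_mul, zero_mul, zero_mul]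
      · exact fun e => absurd (Finset.mem_univ _) e
    · rw [diagonal_apply_ne _ hij]
      by_contra h0
      refine hij (wc_inj (ch_sep (K := k) fun a => Units.ext ?_))
      have h4 := congrFun (congrFun (Mu.DD_equi (Phi k a) (bs k topv) (bs k (op topv))) i) j
      have h5 : ∀ x, V k (Phi k a) (bs k x) = (ch (wc x) a : k) • bs k x := fun x => by
        rw [V_apply, wrep_V.tor, bs, diagonal_mulVec_single, ← smul_eq_mul, Pi.single_smul']
      rw [h5, h5, wrep_V.tor, R2.PX.DD_smul_left, R2.PX.DD_smul_right, smul_smul,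
        ← Units.val_mul, ← ch_add, wc_op, add_neg_cancel, ch_zero, Units.val_one, one_smul, mul_diagonal, diagonal_mul,
        mul_comm] at h4
      exact (mul_right_cancel₀ h0 h4).symm
  intro i j hij
  have h4 := congrFun (congrFun hA i) j
  rw [hT, mul_diagonal, diagonal_mul, mul_comm] at h4
  have h5 := mul_left_cancel₀ (R2.T1.cast_ne (ep_sq topv)) (neg_injective (mul_right_cancel₀ hij h4))
  have h6 := congrFun hc (op topv)
  have h7 := congrFun hd topv
  rw [bs, mulVec_single_one, col_apply, Pi.smul_apply, Pi.single_eq_of_ne hne, smul_zero] at h6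
  rw [bs, mulVec_single_one, col_apply, Pi.smul_apply, Pi.single_eq_of_ne hne.symm, smul_zero] at h7
  rw [lz_nu7, lz_nu7, add_zero]
  have k1 : (1 : k) ≠ 0 := one_ne_zero
  rcases R2.PX.p2_cases topv i with a | a | a | a <;> rcases R2.PX.p2_cases topv j with b | b | b | b <;>
    first
    | exact a.trans b.symm
    | exact absurd (by rw [← R2.PX.p2_eq_three.1 a, R2.PX.p2_eq_neg_three.1 b]; exact h7) hij
    | exact absurd (by rw [← R2.PX.p2_eq_three.1 b, R2.PX.p2_eq_neg_three.1 a]; exact h6) hij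
    | (rw [a, b] at h5; push_cast at h5; exfalso
       first
       | exact k1 (by linear_combination h5 + h3)
       | exact k1 (by linear_combination -h5 + h3)
       | exact k1 (by linear_combination h5 - h3)
       | exact k1 (by linear_combination -h5 - h3)
       | exact h2 (by linear_combination h5)
       | exact h2 (by linear_combination -h5))

/-- modules for the group and the Lie algebra with an invariant form -/
structure LRep {I : Type} [Fintype I] [DecidableEq I] (c : I → Fin 7 → ℤ) (R : Gh k →* Matrix I I k)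
    (A : (chevE7.Idx → k) →ₗ[k] (I → k) →ₗ[k] (I → k)) (B : (I → k) →ₗ[k] (I → k) →ₗ[k] k) : Prop where
  wrep : WRep c R
  equi : ∀ g y v, R g *ᵥ A y v = A (adM k g *ᵥ y) (R g *ᵥ v)
  lie : ∀ x y v, A (br k x y) v = A x (A y v) - A y (A x v)
  nd : ∀ y, (∀ x, B x y = 0) → y = 0
  inv : ∀ g x y, B (R g *ᵥ x) (R g *ᵥ y) = B x y
  skew : ∀ β d z, 0 < d → z ∈ Ge k ac β d → ∀ x y, B (A z x) y = - B x (A z y)

variable (k) in
/-- the action on the 56-dimensional module -/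
noncomputable def AV : (chevE7.Idx → k) →ₗ[k] (D1 → k) →ₗ[k] (D1 → k) := (toLin' : Matrix D1 D1 k ≃ₗ[k] _).toLinearMap ∘ₗ del k

theorem AV_apply (y : chevE7.Idx → k) (v : D1 → k) : AV k y v = del k y *ᵥ v := toLin'_apply _ _

theorem lrep_V (h2 : (2 : k) ≠ 0) : LRep wc (rho k) (AV k) (sf k) where
  wrep := wrep_V
  equi g y v := by rw [AV_apply, AV_apply, mulVec_mulVec, mulVec_mulVec, R2.PX.del_equi h2]
  lie x y v := by simp only [AV_apply, del_br, sub_mulVec, mulVec_mulVec]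
  nd _ := sf_nondeg
  inv := sf_V
  skew _ _ z _ _ x y := by rw [AV_apply, AV_apply, R2.PX.sf_del]

theorem lrep_L (h2 : (2 : k) ≠ 0) : LRep ac (adM k) (br k) (kf k) where
  wrep := wrep_L
  equi := adM_br h2
  lie x y v := by rw [br_jacobi x y v, add_sub_cancel_right]
  nd _ := kf_nondeg h2
  inv := kf_adM
  skew _ _ _ hd hz := kf_skew h2 hd hz

namespace One

variable [Infinite k] (O : One k)

theorem e_Ge : O.e ∈ Ge k ac (lE O.l) 2 := by exact_mod_cast Ge_of_Lz O.e_mem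

theorem f_Ge : O.f ∈ Ge k ac (-lE O.l) 2 := by simpa using Ge_neg_of_Lz O.f_mem

theorem hh_mem : O.hh ∈ Lz k (lz ac O.l) 0 := Lv_iff.1 (by simpa [hh] using br_Lv (Lv_iff.2 O.e_mem) (Lv_iff.2 O.f_mem))

/-- the Lie algebra of the group -/
def ss : Submodule k (chevE7.Idx → k) := Submodule.span k {O.e, O.f, O.hh}

theorem e_ss : O.e ∈ O.ss := Submodule.subset_span (by simp)
theorem f_ss : O.f ∈ O.ss := Submodule.subset_span (by simp)
theorem hh_ss : O.hh ∈ O.ss := Submodule.subset_span (by simp)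

theorem ss_le {W : Submodule k (chevE7.Idx → k)} (he : O.e ∈ W) (hf : O.f ∈ W) (hh : O.hh ∈ W) : O.ss ≤ W :=
  Submodule.span_le.2 (by rintro _ (rfl | rfl | rfl) <;> assumption)

theorem ss_stab (h2 : (2 : k) ≠ 0) (x : SpecialLinearGroup (Fin 2) k) : ∀ y ∈ O.ss, adM k (O.Ξ x) *ᵥ y ∈ O.ss := by
  have key : ∀ g : Gh k, adM k g *ᵥ O.e ∈ O.ss → adM k g *ᵥ O.f ∈ O.ss → adM k g *ᵥ O.hh ∈ O.ss →
      ∀ y ∈ O.ss, adM k g *ᵥ y ∈ O.ss := fun g a b c y hy => O.ss_le (W := O.ss.comap (toLin' (adM k g))) a b c hy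
  refine H943.SL2Rel.induct (P := fun x => ∀ y ∈ O.ss, adM k (O.Ξ x) *ᵥ y ∈ O.ss) (fun t => key _ ?_ ?_ ?_)
    (fun z => key _ ?_ ?_ ?_) (key _ ?_ ?_ ?_) (fun a b ha hb y hy => ?_) x
  · rw [O.u_e h2]; exact O.e_ss
  · rw [O.u_f h2]
    exact sub_mem (add_mem O.f_ss (Submodule.smul_mem _ _ O.hh_ss)) (Submodule.smul_mem _ _ O.e_ss)
  · rw [hh, adM_br h2, O.u_e h2, O.u_f h2, map_sub, map_add, map_smul, map_smul, br_self, smul_zero, sub_zero,
      br_anti O.e O.hh, O.br_hh h2 O.e_mem]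
    exact add_mem O.hh_ss (Submodule.smul_mem _ _ (neg_mem (Submodule.smul_mem _ _ O.e_ss)))
  · rw [O.h_vec wrep_L O.e_mem]; exact Submodule.smul_mem _ _ O.e_ss
  · rw [O.h_vec wrep_L O.f_mem]; exact Submodule.smul_mem _ _ O.f_ss
  · rw [O.h_vec wrep_L O.hh_mem]; exact Submodule.smul_mem _ _ O.hh_ss
  · rw [O.w_e]; exact neg_mem O.f_ss
  · rw [O.w_f]; exact neg_mem O.e_ss
  · rw [hh, adM_br h2, O.w_e, O.w_f, map_neg, map_neg, LinearMap.neg_apply, neg_neg, br_anti]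
    exact neg_mem O.hh_ss
  · rw [map_mul, mulVec_mul]
    exact ha _ (hb y hy)

theorem ss_fix (h2 : (2 : k) ≠ 0) {c : Gh k} (he : adM k c *ᵥ O.e = O.e) (hf : adM k c *ᵥ O.f = O.f) :
    ∀ y ∈ O.ss, adM k c *ᵥ y = y := fun _ hy =>
  O.ss_le (W := LinearMap.eqLocus (toLin' (adM k c)) LinearMap.id) he hf
    (show adM k c *ᵥ O.hh = O.hh by rw [hh, adM_br h2, he, hf]) hy

theorem powF (h2 : (2 : k) ≠ 0) (m : ℕ) : del k O.f ^ m = (m.factorial : k) • O.Fm m := by
  have h1 : rho k (O.Ξ w⁻¹) * rho k (O.Ξ w) = 1 := by rw [← map_mul, ← map_mul, inv_mul_cancel, map_one, map_one]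
  induction m with
  | zero => simp [O.Fm_zero]
  | succ m ih =>
    rw [pow_succ', ih, ← O.Fm_one h2, Fm, Fm, Fm, O.Dm_one, mul_smul_comm, smul_mul_smul_comm, mul_assoc, mul_assoc,
      ← mul_assoc (rho k (O.Ξ w⁻¹)), ← mul_assoc (rho k (O.Ξ w⁻¹)), h1, one_mul, ← mul_assoc (del k O.e), O.Dm_succ,
      smul_mul_assoc, mul_smul_comm, smul_smul, smul_smul, smul_smul, mul_assoc (rho k (O.Ξ w)), Nat.factorial_succ]
    congr 1
    push_cast
    ring

section
variable {I : Type} [Fintype I] [DecidableEq I] {c : I → Fin 7 → ℤ} {R : Gh k →* Matrix I I k}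
  {A : (chevE7.Idx → k) →ₗ[k] (I → k) →ₗ[k] (I → k)} {B : (I → k) →ₗ[k] (I → k) →ₗ[k] k} {d a : ℤ} {x : I → k}

theorem A_lev (hR : LRep c R A B) {z : chevE7.Idx → k} (hz : z ∈ Lz k (lz ac O.l) a) (hx : x ∈ Lz k (lz c O.l) d) :
    A z x ∈ Lz k (lz c O.l) (d + a) := O.of_h hR.wrep fun t => by
  rw [hR.equi, O.h_vec wrep_L hz, O.h_vec hR.wrep hx, map_smul, map_smul, LinearMap.smul_apply, smul_smul,
    zpow_add₀ t.ne_zero]

theorem sl (hR : LRep c R A B) (hH : ∀ d, ∀ x ∈ Lz k (lz c O.l) d, A O.hh x = (d : k) • x) :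
    Sl (lz c O.l) (A O.e) (A O.f) B where
  up _ _ hx := O.A_lev hR O.e_mem hx
  dn _ _ hx := O.A_lev hR O.f_mem hx
  ef d x hx := by rw [← hH d x hx, hh, hR.lie, add_sub_cancel]
  nd := hR.nd
  orth a b hab x hx y hy := by
    by_contra h0
    refine hab (zpow_sep (k := k) fun z => mul_right_cancel₀ h0 ?_)
    have h1 := hR.inv (O.Ξ (h z)) x y
    rw [O.h_vec hR.wrep hx, O.h_vec hR.wrep hy, map_smul, map_smul, LinearMap.smul_apply, smul_smul, smul_eq_mul,
      ← zpow_add₀ z.ne_zero, add_comm] at h1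
    rw [h1, zpow_zero, one_mul]
  skE := hR.skew _ _ _ two_pos O.e_Ge
  skF := hR.skew _ _ _ two_pos O.f_Ge

variable (A) in
/-- the vectors which are killed by the Lie algebra -/
noncomputable def KK : Submodule k (I → k) := LinearMap.ker (A O.e) ⊓ LinearMap.ker (A O.f)

theorem K_ss (hR : LRep c R A B) (hx : x ∈ O.KK A) : ∀ y ∈ O.ss, A y x = 0 := fun _ hy =>
  O.ss_le (W := LinearMap.ker (A.flip x)) hx.1 hx.2 (show A O.hh x = 0 by
    rw [hh, hR.lie, show A O.e x = 0 from hx.1, show A O.f x = 0 from hx.2, map_zero, map_zero, sub_zero]) hy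

theorem K_stab (h2 : (2 : k) ≠ 0) (hR : LRep c R A B) (hx : x ∈ O.KK A) (g : SpecialLinearGroup (Fin 2) k) :
    R (O.Ξ g) *ᵥ x ∈ O.KK A := by
  have h1 : ∀ y ∈ O.ss, A y (R (O.Ξ g) *ᵥ x) = 0 := fun y hy => by
    rw [← mulVec_inv' (adM k) (O.Ξ g) y, ← hR.equi, ← map_inv, O.K_ss hR hx _ (O.ss_stab h2 _ y hy), mulVec_zero]
  exact ⟨h1 _ O.e_ss, h1 _ O.f_ss⟩

theorem K_pr (hR : LRep c R A B) (hx : x ∈ O.KK A) (d : ℤ) : pr (lz c O.l) d x ∈ O.KK A := by
  refine ⟨?_, ?_⟩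
  · show A O.e _ = 0
    rw [← pr_map (fun _ _ hx => O.A_lev hR O.e_mem hx), show A O.e x = 0 from hx.1, map_zero]
  · show A O.f _ = 0
    rw [← pr_map (fun _ _ hx => O.A_lev hR O.f_mem hx), show A O.f x = 0 from hx.2, map_zero]

theorem Kz_neg (h2 : (2 : k) ≠ 0) (hR : LRep c R A B) (hK : Kz (lz c O.l) (A O.e) (A O.f) d) :
    Kz (lz c O.l) (A O.e) (A O.f) (-d) := fun x hx h1 h3 => by
  have h4 := O.K_stab h2 hR ⟨h1, h3⟩ w
  have h5 := O.w_flip hR.wrep hx
  rw [neg_neg] at h5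
  rw [← mulVec_inv R (O.Ξ w) x, hK _ h5 h4.1 h4.2, mulVec_zero]

/-- the upper root group fixes the vectors of the highest level in `KK` -/
theorem u_fix (h2 : (2 : k) ≠ 0) (hR : LRep c R A B) (hK : ∀ d', d < d' → Kz (lz c O.l) (A O.e) (A O.f) d')
    (hx : x ∈ O.KK A) (hx' : x ∈ Lz k (lz c O.l) d) (t : k) : R (O.Ξ (u t)) *ᵥ x = x := by
  have h1 := MGt_mulVec (Ul_sub_one hR.wrep (O.u_mem t)) (Ge_of_Lz hx')
  rw [sub_mulVec, one_mulVec, add_zero] at h1
  refine sub_eq_zero.1 (eq_zero_of_pr (lev := lz c O.l) fun a => ?_)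
  have h3 := O.K_pr hR (sub_mem (O.K_stab h2 hR hx (u t)) hx) a
  by_cases ha : d < a
  · exact hK a ha _ (pr_mem _) h3.1 h3.2
  · funext i
    rw [pr_apply]
    split_ifs with h4
    · by_contra h5
      have h6 := h1 i h5
      rw [bf_lz, Int.cast_lt] at h6
      omega
    · rfl

theorem Kz_zero (h2 : (2 : k) ≠ 0) (hR : LRep c R A B) (nf : ∀ v, (∀ g, R (O.Ξ g) *ᵥ v = v) → v = 0)
    (hK : ∀ d, 0 < d → Kz (lz c O.l) (A O.e) (A O.f) d) : Kz (lz c O.l) (A O.e) (A O.f) 0 := fun x hx h1 h3 => by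
  have h4 : ∀ v ∈ O.KK A ⊓ Lz k (lz c O.l) 0, ∀ t, R (O.Ξ (u t)) *ᵥ v = v := fun v hv => O.u_fix h2 hR hK hv.1 hv.2
  refine nf x fun g => induct2 (P := fun g => R (O.Ξ g) *ᵥ x = x) (h4 x ⟨⟨h1, h3⟩, hx⟩) (fun t => ?_)
    (fun a b ha hb => by rw [map_mul O.Ξ, mulVec_mul, hb, ha]) g
  rw [lo, map_mul O.Ξ, map_mul O.Ξ, mulVec_mul, mulVec_mul, h4 _ ⟨O.K_stab h2 hR ⟨h1, h3⟩ _, O.w_flip' hR.wrep hx⟩, map_inv,
    mulVec_inv']

end

theorem sl_V (h2 : (2 : k) ≠ 0) : Sl (lz wc O.l) (AV k O.e) (AV k O.f) (sf k) :=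
  O.sl (lrep_V h2) fun _ _ hx => by rw [AV_apply, O.hh_vec h2 hx]

theorem sl_L (h2 : (2 : k) ≠ 0) : Sl (lz ac O.l) (br k O.e) (br k O.f) (kf k) :=
  O.sl (lrep_L h2) fun _ _ hx => O.br_hh h2 hx

theorem dd_lev (h2 : (2 : k) ≠ 0) {a b : ℤ} {x y : H943.E7V.Block.D1 → k} (hx : x ∈ Lz k (lz wc O.l) a)
    (hy : y ∈ Lz k (lz wc O.l) b) : dd x y ∈ Lz k (lz ac O.l) (a + b) := O.of_h wrep_L fun z => by
  rw [Mu.dd_equi h2, V_apply, V_apply, O.h_vec wrep_V hx, O.h_vec wrep_V hy, R2.PX.dd_smul_left, R2.PX.dd_smul_right,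
    smul_smul, zpow_add₀ z.ne_zero]

theorem dd_K {x y : H943.E7V.Block.D1 → k} (hx : x ∈ O.KK (AV k)) (hy : y ∈ O.KK (AV k)) : dd x y ∈ O.KK (br k) :=
  ⟨br_eq_zero.2 (Cm_dd two_pos O.e_Ge hx.1 hy.1), br_eq_zero.2 (Cm_dd two_pos O.f_Ge hx.2 hy.2)⟩

end One

end Cfsg.Agent.E7P.En1
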