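import Cfsg.Agent.E7P.En1.Act

/-!
# S5932, END1: symmetries, canonical sets, the centraliser (helper48)
-/

set_option autoImplicit false
set_option maxRecDepth 100000
set_option linter.unusedSectionVars false

namespace Cfsg.Agent.E7P.En1

open Cfsg Cfsg.Lie Matrix Module
open Cfsg.Agent.ChevalleyStructure.RootVec
open Cfsg.Agent.H943.E7V.Block (D1 rho)
open Cfsg.Agent.R2.T1 Cfsg.Agent.E7P.Kf Cfsg.Agent.E7P.Br
open Cfsg.Agent.R2.PX (del DD dd)
open Cfsg.Agent.H943.SL2Rel (u w h)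
open Finset (range)

universe u

variable {k : Type u} [Field k]

theorem map_u (f : k →+* k) (t : k) : SpecialLinearGroup.map f (u t) = u (f t) :=
  Subtype.ext (Matrix.ext fun i j => show f ((u t).1 i j) = _ by fin_cases i <;> fin_cases j <;> simp [u])

theorem map_w (f : k →+* k) : SpecialLinearGroup.map f w = w :=
  Subtype.ext (Matrix.ext fun i j => show f ((w : SpecialLinearGroup (Fin 2) k).1 i j) = _ by
    fin_cases i <;> fin_cases j <;> simp [w])

theorem map_h (f : k →+* k) (z : kˣ) : SpecialLinearGroup.map f (h z) = h (Units.map (f : k →* k) z) :=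
  Subtype.ext (Matrix.ext fun i j => show f ((h z).1 i j) = _ by fin_cases i <;> fin_cases j <;> simp [h])

section
variable {I : Type} [Fintype I] [DecidableEq I] {c : I → Fin 7 → ℤ} {R : Gh k →* Matrix I I k}

variable (R) in
/-- the semilinear action -/
noncomputable def act (g : Gh k) (s : k →+* k) (v : I → k) : I → k := R g *ᵥ fun i => s (v i)

theorem act_vec (hR : WRep c R) (g : Gh k) (s : k →+* k) (y : Gh k) (v : I → k) :
    act R g s (R y *ᵥ v) = R (g * emb s y * g⁻¹) *ᵥ act R g s v := by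
  rw [act, act, ← mulVec_mul, inv_mul_cancel_right, mulVec_mul, hR.frob]
  congr 1
  funext i
  exact RingHom.map_mulVec s _ _ i

theorem act_smul (g : Gh k) (s : k →+* k) (t : k) (v : I → k) : act R g s (t • v) = s t • act R g s v := by
  rw [act, act, ← mulVec_smul]
  congr 1
  funext i
  exact map_mul s _ _

theorem act_zero (g : Gh k) (s : k →+* k) : act R g s 0 = 0 := by
  rw [← zero_smul k (0 : I → k), act_smul, map_zero, zero_smul, zero_smul]

end

namespace One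

variable [Infinite k] (O : One k)

/-- symmetries of the group -/
def Sym (g : Gh k) (s : k →+* k) : Prop :=
  (∀ x, g * emb s (O.Ξ x) * g⁻¹ = O.Ξ (SpecialLinearGroup.map s x)) ∧ Function.Surjective s

section
variable {I : Type} [Fintype I] [DecidableEq I] {c : I → Fin 7 → ℤ} {R : Gh k →* Matrix I I k}
  {A : (chevE7.Idx → k) →ₗ[k] (I → k) →ₗ[k] (I → k)} {B : (I → k) →ₗ[k] (I → k) →ₗ[k] k} {d : ℤ} {x : I → k}
  {g : Gh k} {s : k →+* k}

variable (R) in
/-- canonical sets of vectors -/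
def Can (X : Set (I → k)) : Prop :=
  (∀ y, ∀ x ∈ X, R (O.Ξ y) *ᵥ x ∈ X) ∧ ∀ g s, O.Sym g s → ∀ x ∈ X, act R g s x ∈ X

variable (R A) in
/-- canonical sets have no annihilator -/
def Ann : Prop := ∀ X, O.Can R X → (∃ x ∈ X, x ≠ 0) → ∀ z, (∀ x ∈ X, A z x = 0) → z = 0

variable {O}

theorem Sym.vec (hs : O.Sym g s) (hR : WRep c R) (y : SpecialLinearGroup (Fin 2) k) (v : I → k) :
    act R g s (R (O.Ξ y) *ᵥ v) = R (O.Ξ (SpecialLinearGroup.map s y)) *ᵥ act R g s v := by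
  rw [act_vec hR, hs.1]

theorem Sym.lev (hs : O.Sym g s) (hR : WRep c R) (hx : x ∈ Lz k (lz c O.l) d) : act R g s x ∈ Lz k (lz c O.l) d :=
  O.of_h hR fun z => by
    obtain ⟨t, ht⟩ := hs.2 z
    have h0 : t ≠ 0 := by
      rintro rfl
      exact z.ne_zero (by rw [← ht, map_zero])
    have h1 := hs.vec hR (h (Units.mk0 t h0)) x
    rw [O.h_vec hR hx, act_smul, map_h, show Units.map (s : k →* k) (Units.mk0 t h0) = z from Units.ext ht, map_zpow₀,
      Units.val_mk0, ht] at h1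
    exact h1.symm

theorem Sym.e (hs : O.Sym g s) (h2 : (2 : k) ≠ 0) : act (adM k) g s O.e = O.e := by
  refine Mu.del_injective ?_
  rw [act, del_adM h2, ← del_map, ← O.D1]
  refine coef_eq (k := k) (n := O.N + 2) (a := fun m => rho k g * (O.D m).map s * rho k g⁻¹) (fun t => ?_) (by omega)
  obtain ⟨t, rfl⟩ := hs.2 t
  rw [← O.poly, ← map_u, ← hs.1, map_mul, map_mul, wrep_V.frob, O.poly, ← RingHom.mapMatrix_apply, map_sum,
    Finset.mul_sum, Finset.sum_mul]
  refine Finset.sum_congr rfl fun m _ => ?_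
  rw [← smul_mul_assoc, ← mul_smul_comm]
  congr 2
  ext i j
  simp

theorem Sym.f (hs : O.Sym g s) (h2 : (2 : k) ≠ 0) : act (adM k) g s O.f = O.f := by
  rw [One.f, ← neg_one_smul k, act_smul, hs.vec wrep_L, hs.e h2, map_w, map_neg, map_one]

variable (O)

theorem can_orb (hR : WRep c R) {Y : Set (I → k)} (hY : ∀ g s, O.Sym g s → ∀ y ∈ Y, act R g s y ∈ Y) :
    O.Can R {v | ∃ g, ∃ y ∈ Y, v = R (O.Ξ g) *ᵥ y} := by
  refine ⟨?_, ?_⟩
  · rintro a _ ⟨b, y, hy, rfl⟩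
    exact ⟨a * b, y, hy, by rw [map_mul O.Ξ, mulVec_mul]⟩
  · rintro g s hs _ ⟨b, y, hy, rfl⟩
    exact ⟨_, _, hY g s hs y hy, hs.vec hR b y⟩

/-- the vectors which are killed by the Lie algebra -/
theorem Kz_of_ann (h2 : (2 : k) ≠ 0) (hR : LRep c R A B)
    (hA : ∀ (s : k →+* k) y v, A (fun i => s (y i)) (fun i => s (v i)) = fun i => s (A y v i)) (ann : O.Ann R A) (d : ℤ) :
    Kz (lz c O.l) (A O.e) (A O.f) d := fun x _ h1 h3 => by
  have key : ∀ g s y v, A (act (adM k) g s y) (act R g s v) = act R g s (A y v) := fun g s y v => by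
    rw [act, act, act, ← hR.equi, hA]
  by_contra h0
  refine O.ne (ann (O.KK A) ⟨fun y x hx => O.K_stab h2 hR hx y, fun g s hs x hx => ⟨?_, ?_⟩⟩ ⟨x, ⟨h1, h3⟩, h0⟩ _
    fun x hx => hx.1)
  · show A O.e _ = 0
    rw [← hs.e h2, key, show A O.e x = 0 from hx.1, act_zero]
  · show A O.f _ = 0
    rw [← hs.f h2, key, show A O.f x = 0 from hx.2, act_zero]

theorem u_top (hR : WRep c R) (hT : ∀ i, lz c O.l i ≤ d) (hx : x ∈ Lz k (lz c O.l) d) (t : k) :
    R (O.Ξ (u t)) *ᵥ x = x := by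
  have h1 := MGt_mulVec (Ul_sub_one hR (O.u_mem t)) (Ge_of_Lz hx)
  rw [sub_mulVec, one_mulVec, add_zero] at h1
  refine sub_eq_zero.1 (funext fun i => ?_)
  by_contra h5
  have h6 := h1 i h5
  rw [bf_lz, Int.cast_lt] at h6
  exact absurd (hT i) (not_le.2 h6)

theorem high {c : ℤ} (hM : ∀ i, lz ac O.l i < c) : ∀ r < 126, bf (lE O.l) (rv r) < c := fun r hr => by
  rw [rv, ← ac_inr ⟨r, hr⟩, bf_lz]
  exact_mod_cast hM _

theorem u_cent {p : ℕ} (hp : p.Prime) [CharP k p] (h2 : (2 : k) ≠ 0) (hM : ∀ i, lz ac O.l i < 2 * p + 2)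
    {z : chevE7.Idx → k} (hz : z ∈ Lz k (lz ac O.l) 2) (he : br k O.e z = 0) (t : k) : adM k (O.Ξ (u t)) *ᵥ z = z := by
  refine sub_eq_zero.1 (Lb.eq_zero_of_high (by positivity) (O.high hM) (Lb.adM_sub_mem h2 (O.u_mem t).1 ?_))
  rw [O.poly' le_rfl, Finset.sum_mul, Finset.mul_sum, ← Finset.sum_sub_distrib]
  refine Submodule.sum_mem _ fun m _ => ?_
  rw [smul_mul_assoc, mul_smul_comm, ← smul_sub]
  refine Submodule.smul_mem _ _ ?_
  by_cases hm : m < p
  · have h1 : (m.factorial : k) ≠ 0 := fun e =>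
      absurd (hp.dvd_factorial.1 ((CharP.cast_eq_zero_iff k p _).1 e)) (not_le.2 hm)
    have h3 : del k O.e ^ m * del k z = del k z * del k O.e ^ m := (Commute.pow_left (br_eq_zero.1 he) m).eq
    rw [O.pow_eq, smul_mul_assoc, mul_smul_comm] at h3
    rw [smul_right_injective _ h1 h3, sub_self]
    exact zero_mem _
  · have h1 := (O.Dm_hm m).MGe
    have h3 := (del_hm.2 hz).MGe
    have h4 : (p : ℝ) ≤ m := by exact_mod_cast not_lt.1 hm
    exact sub_mem (MGe_mono (by push_cast; linarith) (MGe_mul h1 h3)) (MGe_mono (by push_cast; linarith) (MGe_mul h3 h1))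

/-- **the module generated by the highest level** -/
theorem a5 {p : ℕ} (hp : p.Prime) [CharP k p] (h2 : (2 : k) ≠ 0) (hR : LRep c R A B) (ann : O.Ann R A) {T : ℤ}
    (hT : ∀ i, lz c O.l i ≤ T) (h1 : mm (lz c O.l) (-T) = 1) (hM : ∀ i, lz ac O.l i < 2 * p + 2) :
    mm (lz ac O.l) 2 ≤ mm (lz ac O.l) 4 + mm (lz c O.l) (-T + 2) := by
  obtain ⟨y0, hy0, h0⟩ := exists_of_mm (k := k) (lev := lz c O.l) (d := -T) (by omega)
  have h3 : ∀ y ∈ Lz k (lz c O.l) (-T), ∃ t : k, t • y0 = y := fun y hy => by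
    obtain ⟨t, ht⟩ := (finrank_eq_one_iff_of_nonzero' (K := k) (⟨y0, hy0⟩ : Lz k (lz c O.l) (-T))
      (fun e => h0 (congrArg Subtype.val e))).1 (by rw [finrank_Lz, h1]) ⟨y, hy⟩
    exact ⟨t, congrArg Subtype.val ht⟩
  rw [← finrank_Lz (k := k), ← finrank_Lz (k := k), ← finrank_Lz (k := k)]
  refine le_of_inj2 _ (br k O.e) (A.flip y0) _ _ (fun z hz => O.A_lev (lrep_L h2) O.e_mem hz)
    (fun z hz => O.A_lev hR hz hy0) fun z hz he hz0 => ?_
  have h4 : ∀ t v, A z v = 0 → A z (R (O.Ξ (u t)) *ᵥ v) = 0 := fun t v hv => by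
    rw [← O.u_cent hp h2 hM hz he t, ← hR.equi, hv, mulVec_zero]
  have h5 := O.w_flip hR.wrep hy0
  rw [_root_.neg_neg] at h5
  refine ann _ (O.can_orb hR.wrep (Y := Lz k (lz c O.l) T) fun g s hs y hy => hs.lev hR.wrep hy)
    ⟨_, ⟨1, _, h5, rfl⟩, fun e => h0 ?_⟩ z ?_
  · rw [map_one, map_one, one_mulVec] at e
    rw [← mulVec_inv R (O.Ξ w) y0, e, mulVec_zero]
  · rintro _ ⟨g, y, hy, rfl⟩
    rcases H943.SL2Rel.bruhat g with ⟨a, t, rfl⟩ | ⟨r, a, t, rfl⟩
    · rw [map_mul O.Ξ, mulVec_mul, O.u_top hR.wrep hT hy, O.h_vec hR.wrep hy, map_smul]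
      refine smul_eq_zero_of_right _ (funext fun i => ?_)
      by_contra h6
      have := O.A_lev hR hz hy i h6
      have := hT i
      omega
    · rw [map_mul O.Ξ, map_mul O.Ξ, map_mul O.Ξ, mulVec_mul, mulVec_mul, mulVec_mul, O.u_top hR.wrep hT hy]
      refine h4 _ _ ?_
      obtain ⟨t, ht⟩ := h3 _ (O.w_flip hR.wrep hy)
      rw [O.h_vec hR.wrep (O.w_flip hR.wrep hy), ← ht, map_smul, map_smul, show A z y0 = 0 from hz0, smul_zero, smul_zero]

end

/-- the facts on the group which come from the maximality -/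
structure Hyp (p : ℕ) : Prop where
  dom : Dom (lE O.l)
  cen : adM k (O.Ξ (h (-1))) = 1
  annV : O.Ann (rho k) (AV k)
  annL : 5 ≤ p → O.Ann (adM k) (br k)
  pt : ∀ X, O.Can (adM k) X → (∃ x ∈ X, x ≠ 0) → ∀ c, (∀ x ∈ X, adM k c *ᵥ x = x) → c ^ p = 1 → c = 1
  nf : ∀ v, (∀ g, adM k (O.Ξ g) *ᵥ v = v) → v = 0
  irr : ∀ β, (∀ g, O.Ξ g ∈ Pl k β) → β = 0

variable {O} {p : ℕ} [CharP k p]

/-- no unipotent element fixes the Lie algebra of the group -/
theorem Hyp.unip (H : O.Hyp p) (hp : p.Prime) (h2 : (2 : k) ≠ 0) {β : E} {c : Gh k} (hc : c ∈ Ul k β)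
    (hf : ∀ y ∈ O.ss, adM k c *ᵥ y = y) : c = 1 := by
  by_contra h0
  obtain ⟨n, h1, h3⟩ := Lb.exists_pow_p hp hc h0
  refine h1 (H.pt _ (O.can_orb wrep_L (Y := {O.e}) fun g s hs y hy => ?_) ⟨_, ⟨1, _, rfl, rfl⟩, ?_⟩ _ ?_ h3)
  · rw [show y = O.e from hy]
    exact hs.e h2
  · rw [map_one, map_one, one_mulVec]
    exact O.ne
  · rintro _ ⟨g, y, hy, rfl⟩
    rw [show y = O.e from hy]
    have h4 := O.ss_stab h2 g _ O.e_ss
    generalize adM k (O.Ξ g) *ᵥ O.e = v at h4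
    clear h1 h3
    induction n with
    | zero => rw [pow_zero, map_one, one_mulVec]
    | succ n ih => rw [pow_succ, mulVec_mul, hf v h4, ih]

/-- **the centraliser** -/
theorem Hyp.cent (H : O.Hyp p) (hp : p.Prime) (h2 : (2 : k) ≠ 0) {c : Gh k} (hc : ∀ β, c ∈ Pl k β)
    (he : adM k c *ᵥ O.e = O.e) (hf : adM k c *ᵥ O.f = O.f) (g : SpecialLinearGroup (Fin 2) k) :
    O.Ξ g * c = c * O.Ξ g := by
  have key : ∀ β g, O.Ξ g ∈ Ul k β → O.Ξ g * c = c * O.Ξ g := fun β g hg => by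
    have h1 : c * O.Ξ g * c⁻¹ * (O.Ξ g)⁻¹ = 1 := H.unip hp h2 (mul_mem (Ul_conj (hc β) hg) (inv_mem hg)) fun y hy => by
      have h3 := O.ss_stab h2 g⁻¹ y hy
      have h4 := O.ss_fix h2 he hf _ h3
      rw [mulVec_mul, mulVec_mul, mulVec_mul, ← map_inv]
      conv_lhs => rw [← h4]
      rw [mulVec_inv, map_inv, mulVec_inv', O.ss_fix h2 he hf y hy]
    rw [mul_inv_eq_one, mul_inv_eq_iff_eq_mul] at h1
    exact h1.symm
  exact induct2 (P := fun g => O.Ξ g * c = c * O.Ξ g) (fun t => key _ _ (O.u_mem t)) (fun t => key _ _ (O.lo_mem t))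
    (fun a b ha hb => by rw [map_mul, mul_assoc, hb, ← mul_assoc, ha, mul_assoc]) g

/-- **EXP3** -/
theorem Hyp.Kz_exp (H : O.Hyp p) (hp : p.Prime) (h2 : (2 : k) ≠ 0) {d : ℤ} (hd : 0 < d)
    (hM : ∀ i, lz ac O.l i < 3 * d - 2) : Kz (lz ac O.l) (br k O.e) (br k O.f) d := fun x hx h1 h3 => by
  have hd' : (0 : ℝ) < d := by exact_mod_cast hd
  have hd1 : (1 : ℝ) ≤ d := by exact_mod_cast hd
  have h4 := O.high hM
  push_cast at h4
  obtain ⟨y, hy⟩ := Lb.exp3 h2 hd' (Ge_of_Lz hx)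
  by_contra h0
  refine hy.ne_one' hd' (fun r hr => (h4 r hr).trans (by linarith)) (Ge_of_Lz hx) h0 (H.unip hp h2 hy.1 (O.ss_fix h2 ?_ ?_))
  · exact sub_eq_zero.1 (Lb.eq_zero_of_high (by linarith) h4 (Ge_mono (by linarith)
      (hy.ad h2 O.e_Ge (br_eq_zero.1 h1).symm)))
  · exact sub_eq_zero.1 (Lb.eq_zero_of_high (by linarith) h4 (Ge_mono (by push_cast; linarith)
      (hy.ad h2 (Ge_of_Lz O.f_mem) (br_eq_zero.1 h3).symm)))

/-- the simple roots -/
def sr7 (j : Fin 7) : Fin chevE7.nroots := ⟨chevE7.simple j, simple_lt7 j j.2⟩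

variable (O) in
/-- the labels -/
def lab (j : Fin 7) : ℤ := lz ac O.l (Sum.inr (sr7 j))

theorem lab_eq (j : Fin 7) : (O.lab j : ℝ) = lE O.l j := (bf_lz ac O.l _).symm.trans (bf_al _ j)

theorem lz_inr (r : Fin chevE7.nroots) : lz ac O.l (Sum.inr r) = ∑ i : Fin 7, rt chevE7 r i * O.lab i := by
  have h1 := bf_rv (lE O.l) r.2
  rw [rv, ← ac_inr, bf_lz] at h1
  have h3 : ((lz ac O.l (Sum.inr r) : ℤ) : ℝ) = ((∑ i : Fin 7, rt chevE7 r i * O.lab i : ℤ) : ℝ) := by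
    rw [h1]
    push_cast
    exact Finset.sum_congr rfl fun i _ => by rw [lab_eq, mul_comm]
  exact_mod_cast h3

theorem lz_inl (l : Fin 7 → ℤ) (i : Fin chevE7.rank) : lz ac l (Sum.inl i) = 0 := by simp [lz, ac_inl]

theorem lz_wt (a : H943.E7V.Block.D1) : 2 * lz wc O.l a = ∑ i : Fin 7, R2.PX.mmn (nn a) i * O.lab i := by
  have h3 : ((2 * lz wc O.l a : ℤ) : ℝ) = ((∑ i : Fin 7, R2.PX.mmn (nn a) i * O.lab i : ℤ) : ℝ) := by
    push_cast
    rw [← bf_lz, bf_symm, bf_def]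
    simp only [Finset.mul_sum]
    rw [Finset.sum_comm]
    refine Finset.sum_congr rfl fun j _ => ?_
    rw [← nt_chk_mmn _ (nn_lt a) (rt_nn a) j j.2, sum7, lab_eq]
    push_cast
    rw [Finset.sum_mul]
    refine Finset.sum_congr rfl fun i _ => ?_
    show 2 * (((chevE8.cartan i (nn a) : ℤ) : ℝ) * (((iC i j : ℤ) : ℝ) / 2 * lE O.l j)) = _
    ring
  exact_mod_cast h3

/-- **the labels are `0` or `2`** -/
theorem Hyp.labels (H : O.Hyp p) (hp : p.Prime) (h2 : (2 : k) ≠ 0) (j : Fin 7) : O.lab j = 0 ∨ O.lab j = 2 := by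
  have h0 : ∀ i, 0 ≤ O.lab i := fun i => by
    have h1 := H.dom i
    rw [← lab_eq] at h1
    exact_mod_cast h1
  have h1 : Even (O.lab j) := by
    by_contra h3
    have h4 := O.h_vec wrep_L (single_mem (lz ac O.l) (Sum.inr (sr7 j)) (1 : k)) (-1)
    rw [H.cen, one_mulVec, Units.val_neg, Units.val_one, ← lab, Odd.neg_one_zpow (Int.not_even_iff_odd.1 h3)] at h4
    have h5 := congrFun h4 (Sum.inr (sr7 j))
    rw [Pi.smul_apply, Pi.single_eq_same, smul_eq_mul, mul_one] at h5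
    exact h2 (by linear_combination h5)
  have h3 : O.lab j ≤ 2 := by
    by_contra h3
    let ν : Fin 7 → ℤ := fun i => iC j i
    have h4 : ∀ r : Fin chevE7.nroots, lz ac ν (Sum.inr r) = 2 * rt chevE7 r j := fun r => by
      rw [← chk_iC r r.2 j j.2, sum7]
      exact Finset.sum_congr rfl fun i _ => mul_comm _ _
    have h5 : ∀ d : ℤ, -2 ≤ d → d ≤ 2 → ∀ x ∈ Lz k (lz ac O.l) d, ∀ z, adM k (Phi k (lam ν z)) *ᵥ x = x := by
      intro d hd hd' x hx z
      rw [lam_vec wrep_L (d := 0), zpow_zero, one_smul]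
      rintro (i | r) hi
      · exact lz_inl _ _
      · have h6 := hx _ hi
        rw [lz_inr, ← Finset.add_sum_erase _ _ (Finset.mem_univ j)] at h6
        rw [h4]
        by_cases h63 : 63 ≤ r.1
        · have h7 := (chk_pos r r.2).2.1 h63
          have h8 : 0 ≤ ∑ i ∈ Finset.univ.erase j, rt chevE7 r i * O.lab i :=
            Finset.sum_nonneg fun i _ => mul_nonneg (h7 i i.2) (h0 i)
          have h9 := h7 j j.2
          by_contra h10
          have h11 : 1 ≤ rt chevE7 r j := by omega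
          nlinarith [mul_nonneg (show 0 ≤ rt chevE7 r j - 1 by omega) (show 0 ≤ O.lab j - 3 by omega)]
        · have h7 := (chk_pos r r.2).2.2 (not_le.1 h63)
          have h8 : ∑ i ∈ Finset.univ.erase j, rt chevE7 r i * O.lab i ≤ 0 :=
            Finset.sum_nonpos fun i _ => mul_nonpos_of_nonpos_of_nonneg (h7 i i.2) (h0 i)
          have h9 := h7 j j.2
          by_contra h10
          have h11 : rt chevE7 r j ≤ -1 := by omega
          nlinarith [mul_nonneg (show 0 ≤ -rt chevE7 r j - 1 by omega) (show 0 ≤ O.lab j - 3 by omega)]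
    have h6 := H.irr (lE ν) fun g => (Pl_of_hm (hm_of_comm wrep_V fun z => H.cent hp h2 (fun β => Phi_mem_Pl β _)
      (h5 2 (by omega) (by omega) _ O.e_mem z) (h5 (-2) (by omega) (by omega) _ O.f_mem z) g)).1
    have h7 := bf_lz ac ν (Sum.inr (sr7 j))
    rw [h6, h4, show rt chevE7 (sr7 j) j = _ from rt_simple j j.2 j j.2, if_pos rfl] at h7
    simp at h7
  have := h0 j
  obtain ⟨m, hm⟩ := h1
  omega

end One

end Cfsg.Agent.E7P.En1
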