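import Mathlib

/-!
# S5932, END1: graded modules for `sl₂` (linear algebra, helper48)
-/

set_option autoImplicit false
set_option linter.unusedSectionVars false

namespace Cfsg.Agent.E7P.En1

open Module Finset

variable {k : Type*} [Field k] {I : Type}

variable (k) in
/-- the vectors of level `d` -/
def Lz (lev : I → ℤ) (d : ℤ) : Submodule k (I → k) where
  carrier := {x | ∀ i, x i ≠ 0 → lev i = d}
  zero_mem' := fun _ h => absurd rfl h
  add_mem' := by
    intro x y hx hy i hi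
    by_cases h : x i = 0
    · rw [Pi.add_apply, h, zero_add] at hi
      exact hy i hi
    · exact hx i h
  smul_mem' := fun _ _ hx i hi => hx i (right_ne_zero_of_mul hi)

/-- the component of level `d` -/
def pr (lev : I → ℤ) (d : ℤ) : (I → k) →ₗ[k] (I → k) where
  toFun x i := if lev i = d then x i else 0
  map_add' x y := by
    funext i
    simp only [Pi.add_apply]
    split_ifs <;> simp
  map_smul' c x := by
    funext i
    simp only [Pi.smul_apply, RingHom.id_apply]
    split_ifs <;> simp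

variable {lev : I → ℤ} {d d' : ℤ} {x y : I → k}

theorem pr_apply (x : I → k) (i : I) : pr lev d x i = if lev i = d then x i else 0 := rfl

theorem pr_mem (x : I → k) : pr lev d x ∈ Lz k lev d := fun i hi => by
  by_contra h
  exact hi (if_neg h)

theorem pr_of_mem (hx : x ∈ Lz k lev d) : pr lev d x = x := by
  funext i
  rw [pr_apply]
  split_ifs with h
  · rfl
  · by_contra h1
    exact h (hx i (Ne.symm h1))

theorem pr_of_ne (hx : x ∈ Lz k lev d) (h : d ≠ d') : pr lev d' x = 0 := by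
  funext i
  rw [pr_apply]
  split_ifs with h1
  · by_contra h2
    exact h ((hx i h2).symm.trans h1)
  · rfl

theorem eq_zero_of_two (hx : x ∈ Lz k lev d) (hx' : x ∈ Lz k lev d') (h : d ≠ d') : x = 0 := by
  rw [← pr_of_mem hx', pr_of_ne hx h]

theorem eq_zero_of_pr (h : ∀ d, pr lev d x = 0) : x = 0 := by
  funext i
  have h1 := congrFun (h (lev i)) i
  rwa [pr_apply, if_pos rfl] at h1

theorem mem_cast (hx : x ∈ Lz k lev d) (h : d = d') : x ∈ Lz k lev d' := h ▸ hx

variable [Fintype I] [DecidableEq I]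

theorem single_mem (lev : I → ℤ) (i : I) (c : k) : (Pi.single i c : I → k) ∈ Lz k lev (lev i) := fun j hj => by
  by_cases h : j = i
  · rw [h]
  · exact absurd (by rw [Pi.single_eq_of_ne h]) hj

theorem lz_induction (lev : I → ℤ) {P : (I → k) → Prop} (h0 : P 0) (ha : ∀ x y, P x → P y → P (x + y))
    (h : ∀ i, x i ≠ 0 → ∀ y ∈ Lz k lev (lev i), P y) : P x := by
  rw [← univ_sum_single x]
  refine sum_induction _ P ha h0 fun i _ => ?_
  by_cases h1 : x i = 0
  · rw [h1, Pi.single_zero]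
    exact h0
  · exact h i h1 _ (single_mem lev i _)

/-- homogeneous maps commute with the projections -/
theorem pr_map {J : Type} {lev' : J → ℤ} {f : (I → k) →ₗ[k] (J → k)} {a : ℤ}
    (hf : ∀ d, ∀ x ∈ Lz k lev d, f x ∈ Lz k lev' (d + a)) (d : ℤ) (x : I → k) :
    pr lev' (d + a) (f x) = f (pr lev d x) := by
  refine lz_induction lev (P := fun x => pr lev' (d + a) (f x) = f (pr lev d x)) (by simp)
    (fun x y hx hy => by simp only [map_add, hx, hy]) fun i _ y hy => ?_
  by_cases h : lev i = d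
  · rw [h] at hy
    rw [pr_of_mem hy, pr_of_mem (hf d y hy)]
  · rw [pr_of_ne hy h, pr_of_ne (hf _ y hy) (by omega), map_zero]

/-- the number of basis vectors of level `d` -/
def mm (lev : I → ℤ) (d : ℤ) : ℕ := (univ.filter fun i => lev i = d).card

theorem finrank_Lz (lev : I → ℤ) (d : ℤ) : finrank k (Lz k lev d) = mm lev d := by
  let e : Lz k lev d ≃ₗ[k] ({i // lev i = d} → k) :=
    { toFun := fun x i => x.1 i.1
      map_add' := fun _ _ => rfl
      map_smul' := fun _ _ => rfl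
      invFun := fun y => ⟨fun i => if h : lev i = d then y ⟨i, h⟩ else 0, fun i hi => by
        by_contra h
        exact hi (dif_neg h)⟩
      left_inv := fun x => by
        refine Subtype.ext (funext fun i => ?_)
        show (if h : lev i = d then x.1 i else 0) = x.1 i
        split_ifs with h
        · rfl
        · by_contra h1
          exact h (x.2 i (Ne.symm h1))
      right_inv := fun y => funext fun i => dif_pos i.2 }
  rw [e.finrank_eq, finrank_fintype_fun_eq_card, Fintype.card_subtype, mm]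

theorem eq_zero_of_mm (h : mm lev d = 0) (hx : x ∈ Lz k lev d) : x = 0 := by
  funext i
  by_contra h1
  exact absurd (card_eq_zero.1 h) (Nonempty.ne_empty ⟨i, mem_filter.2 ⟨mem_univ _, hx i h1⟩⟩)

theorem exists_of_mm (h : mm lev d ≠ 0) : ∃ x ∈ Lz k lev d, x ≠ 0 := by
  obtain ⟨i, hi⟩ := card_ne_zero.1 h
  refine ⟨Pi.single i 1, mem_cast (single_mem lev i 1) (mem_filter.1 hi).2, fun e => ?_⟩
  simpa using congrFun e i

section Abs
variable {M N P : Type*} [AddCommGroup M] [Module k M] [AddCommGroup N] [Module k N] [AddCommGroup P] [Module k P]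

theorem le_of_inj2 [FiniteDimensional k N] [FiniteDimensional k P] (A : Submodule k M) (f : M →ₗ[k] N) (g : M →ₗ[k] P)
    (U : Submodule k N) (W : Submodule k P) (hf : ∀ x ∈ A, f x ∈ U) (hg : ∀ x ∈ A, g x ∈ W)
    (h : ∀ x ∈ A, f x = 0 → g x = 0 → x = 0) : finrank k A ≤ finrank k U + finrank k W := by
  rw [← finrank_prod]
  refine LinearMap.finrank_le_finrank_of_injective (f := (f.restrict hf).prod (g.restrict hg)) ?_
  rw [injective_iff_map_eq_zero]
  intro x hx
  exact Subtype.ext (h x.1 x.2 (congrArg (fun z => z.1.1) hx) (congrArg (fun z => z.2.1) hx))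

theorem cas0 [FiniteDimensional k N] [FiniteDimensional k P] (φ : M →ₗ[k] P) (ψ : P →ₗ[k] N)
    (hφ : Function.Injective φ) (h : ∀ x, ψ (φ x) = 0) (W : Submodule k N) (hW : W ≤ LinearMap.range ψ) :
    finrank k M + finrank k W ≤ finrank k P := by
  have h1 := LinearMap.finrank_range_add_finrank_ker ψ
  have h2 := Submodule.finrank_mono hW
  have h3 : LinearMap.range φ ≤ LinearMap.ker ψ := by
    rintro _ ⟨x, rfl⟩
    exact h x
  have h4 := Submodule.finrank_mono h3
  rw [LinearMap.finrank_range_of_inj hφ] at h4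
  omega

end Abs

/-- a graded self-dual module for `sl₂` -/
structure Sl (lev : I → ℤ) (E F : (I → k) →ₗ[k] (I → k)) (B : (I → k) →ₗ[k] (I → k) →ₗ[k] k) : Prop where
  up : ∀ d, ∀ x ∈ Lz k lev d, E x ∈ Lz k lev (d + 2)
  dn : ∀ d, ∀ x ∈ Lz k lev d, F x ∈ Lz k lev (d - 2)
  ef : ∀ d, ∀ x ∈ Lz k lev d, E (F x) = F (E x) + (d : k) • x
  nd : ∀ y, (∀ x, B x y = 0) → y = 0
  orth : ∀ a b, a + b ≠ 0 → ∀ x ∈ Lz k lev a, ∀ y ∈ Lz k lev b, B x y = 0
  skE : ∀ x y, B (E x) y = - B x (E y)
  skF : ∀ x y, B (F x) y = - B x (F y)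

/-- no vector of level `d` is killed by `E` and `F` -/
def Kz (lev : I → ℤ) (E F : (I → k) →ₗ[k] (I → k)) (d : ℤ) : Prop := ∀ x ∈ Lz k lev d, E x = 0 → F x = 0 → x = 0

namespace Sl

variable {E F : (I → k) →ₗ[k] (I → k)} {B : (I → k) →ₗ[k] (I → k) →ₗ[k] k} (h : Sl lev E F B)
include h

theorem B_pr (hx : x ∈ Lz k lev d) (y : I → k) : B x y = B x (pr lev (-d) y) := by
  refine lz_induction lev (P := fun y => B x y = B x (pr lev (-d) y)) (by simp)
    (fun x y hx hy => by simp only [map_add, hx, hy]) fun i _ y hy => ?_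
  by_cases h1 : lev i = -d
  · rw [h1] at hy
    rw [pr_of_mem hy]
  · rw [pr_of_ne hy h1, map_zero, h.orth _ _ (by omega) x hx y hy]

theorem nd_lv (hy : y ∈ Lz k lev (-d)) (h0 : ∀ x ∈ Lz k lev d, B x y = 0) : y = 0 := by
  refine h.nd y fun x => lz_induction lev (P := fun x => B x y = 0) (by simp)
    (fun x y hx hy => by rw [map_add, LinearMap.add_apply, hx, hy, add_zero]) fun i _ x hx => ?_
  by_cases h1 : lev i = d
  · exact h0 x (mem_cast hx h1)
  · exact h.orth _ _ (by omega) x hx y hy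

theorem exists_perp {U : Submodule k (I → k)} (hU : ¬ Lz k lev d ≤ U) :
    ∃ y ∈ Lz k lev (-d), y ≠ 0 ∧ ∀ u ∈ U, u ∈ Lz k lev d → B u y = 0 := by
  obtain ⟨x, hx, hxU⟩ := SetLike.not_le_iff_exists.1 hU
  obtain ⟨φ, h1, h2⟩ := U.exists_le_ker_of_notMem hxU
  have h3 : Function.Injective B.flip := (injective_iff_map_eq_zero _).2 fun y hy =>
    h.nd y fun x => LinearMap.congr_fun hy x
  obtain ⟨y, rfl⟩ := (LinearMap.injective_iff_surjective_of_finrank_eq_finrank Subspace.dual_finrank_eq.symm).1 h3 φ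
  refine ⟨pr lev (-d) y, pr_mem y, fun e => h1 ?_, fun u hu hu' => ?_⟩
  · rw [LinearMap.flip_apply, h.B_pr hx, e, map_zero]
  · rw [← h.B_pr hu']
    exact h2 hu

/-- if `E` is onto the level `d` then it is injective on the level `-d` -/
theorem inj_of_onto (ho : Lz k lev d ≤ (Lz k lev (d - 2)).map E) (hy : y ∈ Lz k lev (-d)) (h0 : E y = 0) : y = 0 := by
  refine h.nd_lv hy fun x hx => ?_
  obtain ⟨z, -, rfl⟩ := ho hx
  rw [h.skE, h0, map_zero, neg_zero]

theorem onto (hK : Kz lev E F (-d)) (hx : x ∈ Lz k lev d) :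
    ∃ y ∈ Lz k lev (d + 2), ∃ z ∈ Lz k lev (d - 2), x = F y + E z := by
  have h1 : Lz k lev d ≤ (Lz k lev (d + 2)).map F ⊔ (Lz k lev (d - 2)).map E := by
    by_contra h1
    obtain ⟨y, hy, h0, h2⟩ := h.exists_perp h1
    refine h0 (hK y hy ?_ ?_)
    · refine h.nd_lv (d := d - 2) (mem_cast (h.up _ y hy) (by ring)) fun z hz => ?_
      have h3 := h2 (E z) (Submodule.mem_sup_right ⟨z, hz, rfl⟩) (mem_cast (h.up _ z hz) (by ring))
      rwa [h.skE, neg_eq_zero] at h3
    · refine h.nd_lv (d := d + 2) (mem_cast (h.dn _ y hy) (by ring)) fun z hz => ?_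
      have h3 := h2 (F z) (Submodule.mem_sup_left ⟨z, hz, rfl⟩) (mem_cast (h.dn _ z hz) (by ring))
      rwa [h.skF, neg_eq_zero] at h3
  obtain ⟨_, ⟨y, hy, rfl⟩, _, ⟨z, hz, rfl⟩, e⟩ := Submodule.mem_sup.1 (h1 hx)
  exact ⟨y, hy, z, hz, e.symm⟩

theorem cas_gen (hd : (d : k) = 0) (hK : Kz lev E F d) (U : Submodule k (I → k)) (hU : ∀ x ∈ Lz k lev d, E x ∈ U)
    (hs : ∀ x ∈ Lz k lev d, ∃ y ∈ U, ∃ z ∈ Lz k lev (d - 2), x = F y + E z) :
    2 * mm lev d ≤ finrank k U + mm lev (d - 2) := by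
  have h1 := cas0 (M := Lz k lev d) (P := U × Lz k lev (d - 2)) ((E.restrict hU).prod (-F.restrict (h.dn d)))
    ((F ∘ₗ U.subtype).coprod (E ∘ₗ (Lz k lev (d - 2)).subtype)) ?_ ?_ (Lz k lev d) ?_
  · rw [finrank_prod, finrank_Lz, finrank_Lz] at h1
    omega
  · rw [injective_iff_map_eq_zero]
    intro x hx
    exact Subtype.ext (hK x.1 x.2 (congrArg (fun z => z.1.1) hx) (neg_eq_zero.1 (congrArg (fun z => z.2.1) hx)))
  · intro x
    show F (E x.1) + E (-F x.1) = 0
    rw [map_neg, h.ef d x.1 x.2, hd, zero_smul, add_zero, add_neg_cancel]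
  · intro x hx
    obtain ⟨y, hy, z, hz, e⟩ := hs x hx
    exact ⟨(⟨y, hy⟩, ⟨z, hz⟩), e.symm⟩

/-- **CAS** -/
theorem cas (hd : (d : k) = 0) (hK : Kz lev E F d) (hK' : Kz lev E F (-d)) :
    2 * mm lev d ≤ mm lev (d + 2) + mm lev (d - 2) := by
  rw [← finrank_Lz (k := k) lev (d + 2)]
  exact h.cas_gen hd hK _ (h.up d) fun x hx => h.onto hK' hx

theorem Kz_of_ne (hd : (d : k) ≠ 0) : Kz lev E F d := fun x hx h1 h2 => by
  have h3 := h.ef d x hx
  rw [h1, h2, map_zero, map_zero, zero_add] at h3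
  exact (smul_eq_zero.1 h3.symm).resolve_left hd

theorem simple1 (hd : (d : k) ≠ 0) : mm lev d ≤ mm lev (d + 2) + mm lev (d - 2) := by
  simp only [← finrank_Lz (k := k)]
  exact le_of_inj2 _ E F _ _ (h.up d) (h.dn d) (h.Kz_of_ne hd)

theorem pow_dn (hx : x ∈ Lz k lev d) (n : ℕ) : (F ^ n) x ∈ Lz k lev (d - 2 * n) := by
  induction n with
  | zero => simpa using hx
  | succ n ih =>
    rw [pow_succ', Module.End.mul_apply]
    exact mem_cast (h.dn _ _ ih) (by push_cast; ring)

/-- strings -/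
theorem string (hx : x ∈ Lz k lev d) (h0 : E x = 0) (n : ℕ) :
    E ((F ^ (n + 1)) x) = (((n + 1) * (d - n) : ℤ) : k) • (F ^ n) x := by
  induction n with
  | zero => simp [h.ef d x hx, h0]
  | succ n ih =>
    rw [pow_succ', Module.End.mul_apply, h.ef _ _ (h.pow_dn hx (n + 1)), ih, map_smul, ← Module.End.mul_apply F,
      ← pow_succ', ← add_smul]
    congr 1
    push_cast
    ring

theorem string_inj (hx : x ∈ Lz k lev d) (h0 : E x = 0) (n : ℕ) (hn : ∀ i < n, (((i + 1) * (d - i) : ℤ) : k) ≠ 0)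
    (h1 : (F ^ n) x = 0) : x = 0 := by
  induction n with
  | zero => simpa using h1
  | succ n ih =>
    refine ih (fun i hi => hn i (by omega)) ?_
    have h2 := h.string hx h0 n
    rw [h1, map_zero] at h2
    exact (smul_eq_zero.1 h2.symm).resolve_left (hn n (by omega))

theorem simple2 (h2 : (2 : k) ≠ 0) (hd : (d : k) ≠ 0) (hd' : ((d - 1 : ℤ) : k) ≠ 0) :
    mm lev d ≤ mm lev (d + 2) + mm lev (d - 4) := by
  simp only [← finrank_Lz (k := k)]
  refine le_of_inj2 _ E (F ^ 2) _ _ (h.up d) (fun x hx => mem_cast (h.pow_dn hx 2) (by norm_num))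
    fun x hx h0 h1 => h.string_inj hx h0 2 (fun i hi => ?_) h1
  interval_cases i
  · simpa using hd
  · push_cast at hd' ⊢
    exact mul_ne_zero h2 hd'

/-- a highest weight vector of a small simple module -/
theorem exists_hw {p j : ℕ} [CharP k p] (hp : p.Prime) (hj : j + 2 ≤ p) (h1 : mm lev (j + 2) < mm lev j)
    (h2 : mm lev (j + 2) + mm lev (j + 2 - 2 * p) ≤ mm lev j) :
    ∃ v ∈ Lz k lev j, v ≠ 0 ∧ E v = 0 ∧ (F ^ (j + 1)) v = 0 := by
  have hs : ∀ v ∈ Lz k lev j, E v = 0 → (F ^ (j + 1)) v ∈ Lz k lev (-(j + 2)) ∧ E ((F ^ (j + 1)) v) = 0 :=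
    fun v hv h0 => ⟨mem_cast (h.pow_dn hv _) (by push_cast; ring), by rw [h.string hv h0]; simp⟩
  by_contra hc
  push Not at hc
  by_cases ho : Lz k lev (j + 2) ≤ (Lz k lev (j + 2 - 2)).map E
  · have h3 := le_of_inj2 (Lz k lev j) E (0 : (I → k) →ₗ[k] (I → k)) _ ⊥ (h.up j) (fun _ _ => rfl) fun v hv h0 _ => by
      by_contra h4
      exact hc v hv h4 h0 (h.inj_of_onto ho (hs v hv h0).1 (hs v hv h0).2)
    rw [finrank_Lz, finrank_Lz, finrank_bot] at h3
    omega
  · rw [add_sub_cancel_right] at ho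
    have h4 : (Lz k lev j).map E < Lz k lev (j + 2) :=
      lt_of_le_not_ge (by rintro _ ⟨x, hx, rfl⟩; exact h.up _ x hx) ho
    have h5 := Submodule.finrank_lt_finrank_of_lt h4
    obtain ⟨n, rfl⟩ := Nat.exists_eq_add_of_le hj
    have h3 := le_of_inj2 (Lz k lev j) E (F ^ (n + (j + 1))) _ (Lz k lev (j + 2 - 2 * (j + 2 + n : ℕ)))
      (fun x hx => Submodule.mem_map_of_mem hx) (fun x hx => mem_cast (h.pow_dn hx _) (by push_cast; ring))
      fun v hv h0 h6 => by
        by_contra h4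
        refine hc v hv h4 h0 (h.string_inj (hs v hv h0).1 (hs v hv h0).2 n (fun i hi => ?_) ?_)
        · rw [Ne, CharP.intCast_eq_zero_iff k (j + 2 + n)]
          intro h7
          rcases (Nat.prime_iff_prime_int.1 hp).dvd_or_dvd h7 with h8 | h8
          · have := Int.le_of_dvd (by positivity) h8
            omega
          · have := Int.le_of_dvd (by omega) (dvd_neg.2 h8)
            omega
        · rwa [pow_add, Module.End.mul_apply] at h6
    rw [finrank_Lz, finrank_Lz] at h3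
    rw [finrank_Lz] at h5
    omega

/-- the last case for `p = 3` -/
theorem special (h2 : (2 : k) ≠ 0) (h3 : (3 : k) = 0) (hE : ∀ x, E (E (E x)) = 0) (hF : ∀ x, F (F (F x)) = 0)
    (hK : Kz lev E F 9) (hK' : Kz lev E F (-9)) (h15 : mm lev 15 = 0) (h15' : mm lev (-15) = 0)
    (h13 : mm lev (-13) ≠ 0) : 2 * mm lev 9 < mm lev 11 + mm lev 7 := by
  have h4 : (Lz k lev 9).map E < Lz k lev 11 := by
    refine lt_of_le_not_ge (by rintro _ ⟨x, hx, rfl⟩; exact h.up _ x hx) fun ho => ?_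
    obtain ⟨u, hu, h0⟩ := exists_of_mm (k := k) h13
    have a1 : F u = 0 := eq_zero_of_mm h15' (h.dn _ u hu)
    have a2 := h.ef _ u hu
    have a3 := h.up _ u hu
    have a4 := h.ef _ _ a3
    have a5 : F (E u) = u := by
      rw [a1, map_zero] at a2
      push_cast at a2
      have : (-13 : k) = -1 := by linear_combination (-4) * h3
      rw [this, neg_one_smul, ← sub_eq_add_neg] at a2
      exact sub_eq_zero.1 a2.symm
    have a6 : E (E u) = 0 := by
      refine hK' _ (h.up _ _ a3) (hE u) ?_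
      rw [a5] at a4
      push_cast at a4
      have : (-11 : k) = 1 := by linear_combination (-4) * h3
      rw [this, one_smul] at a4
      exact left_eq_add.1 (a4.trans (add_comm _ _))
    have a7 : E u = 0 := h.inj_of_onto (d := 11) ho a3 a6
    exact h0 (by rw [← a5, a7, map_zero])
  have h5 := Submodule.finrank_lt_finrank_of_lt h4
  rw [finrank_Lz] at h5
  have h6 := h.cas_gen (d := 9) (by push_cast; linear_combination 3 * h3) hK _ (fun x hx => Submodule.mem_map_of_mem hx)
    fun x hx => by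
      obtain ⟨y, hy, z, hz, rfl⟩ := h.onto hK' hx
      have a1 := h.up _ y hy
      have a2 : E (E y) = 0 := eq_zero_of_mm h15 (h.up _ _ a1)
      have a3 := h.string a1 a2 0
      have a4 := h.string a1 a2 1
      have e13 : ((((0 : ℕ) + 1) * (9 + 2 + 2 - (0 : ℕ)) : ℤ) : k) = 1 := by push_cast; linear_combination 4 * h3
      have e24 : ((((1 : ℕ) + 1) * (9 + 2 + 2 - (1 : ℕ)) : ℤ) : k) = 0 := by push_cast; linear_combination 8 * h3
      rw [e13, one_smul, pow_zero, zero_add, pow_one, Module.End.one_apply] at a3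
      rw [e24, zero_smul, pow_succ, pow_one, Module.End.mul_apply] at a4
      have a5 := h.dn _ _ a1
      have a6 : F (F (E y)) = 0 := hK _ (h.dn _ _ a5) a4 (hF _)
      have a7 : y - F (E y) ∈ Lz k lev 11 := sub_mem hy a5
      have a8 := h.string a7 (by rw [map_sub, a3, sub_self]) 1
      have e20 : ((((1 : ℕ) + 1) * (11 - (1 : ℕ)) : ℤ) : k) = 2 := by push_cast; linear_combination 6 * h3
      rw [e20, pow_succ, pow_one, Module.End.mul_apply, map_sub F y, a6, sub_zero] at a8
      refine ⟨0, zero_mem _, z + (2 : k)⁻¹ • F (F y), add_mem hz (Submodule.smul_mem _ _ (h.dn _ _ (h.dn _ y hy))), ?_⟩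
      rw [map_zero, zero_add, map_add, map_smul, a8, smul_smul, inv_mul_cancel₀ h2, one_smul, add_comm]
  have e7 : (9 : ℤ) - 2 = 7 := rfl
  rw [e7] at h6
  omega

end Sl

end Cfsg.Agent.E7P.En1
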